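import Cfsg.Agent.H899.Pt.Env4
import Cfsg.Agent.H899.Pt.Four

/-!
# Factorizations: combination (helper899, S3679)

* `Conj0` : the elements of order `r` and type `n` are conjugate up to powers;
* `Env.type_two_of` : `M` (without `C_r × C_r`) contains an element of order `r` and type `n`: the elements of order `r` of
  the factors are of type `2 n`;
* `Env.no_mem_of` : and they are not in `M`.
-/

set_option autoImplicit false
set_option linter.unusedSectionVars false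
set_option linter.unusedVariables false

namespace Cfsg.Agent.H899.Pt

open Module Cfsg.Agent.H951 Cfsg.Agent.H884.Cg Cfsg.Agent.H899.CG

variable {T G : Type*} [Group T] [Finite T] [Group G] {F : Type*} [Field F] [Fintype F] {V : Type*} [AddCommGroup V]
  [Module F V] [FiniteDimensional F V]
variable {r n : ℕ} {π : G →* T} {ρ : G →* Module.End F V} {A M S₁ S₂ : Subgroup T} {S : Type*} [Group S] [Finite S] {l : ℕ}

/-- the elements of order `r` and type `n` are conjugate up to powers -/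
def Conj0 (r n : ℕ) (ρ : G →* Module.End F V) : Prop :=
  ∀ x y : G, x ^ r = 1 → y ^ r = 1 → x ≠ 1 → y ≠ 1 → finrank F (cm (ρ x)) = n → finrank F (cm (ρ y)) = n →
    ∃ g : G, g * x * g⁻¹ ∈ Subgroup.zpowers y

omit [Finite T] in
theorem Env.lift_unique (h : Env r n π ρ) {x y : G} (hx : x ^ r = 1) (hy : y ^ r = 1) (hxy : π x = π y) : x = y := by
  have hz1 : π (y⁻¹ * x) = 1 := by rw [map_mul, map_inv, hxy, inv_mul_cancel]
  by_contra hne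
  have hz : y⁻¹ * x ≠ 1 := fun h1 => hne (inv_mul_eq_one.1 h1).symm
  refine h.pne ?_ hz hz1
  obtain ⟨h5, h6⟩ := h.ker _ hz1
  set z := y⁻¹ * x with hzd
  have h7 : x = y * z := by rw [hzd]; group
  have hcz : Commute y z := (h6 _).symm
  rw [h7, hcz.mul_pow, hy, one_mul] at hx
  exact hx

omit [Finite T] in
/-- conjugacy in `T` -/
theorem Env.conjT (h : Env r n π ρ) (h0 : Conj0 r n ρ) {x y : G} (hx : x ^ r = 1) (hy : y ^ r = 1) (hx1 : x ≠ 1)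
    (hy1 : y ≠ 1) (hdx : finrank F (cm (ρ x)) = n) (hdy : finrank F (cm (ρ y)) = n) :
    ∃ t : T, t * π x * t⁻¹ ∈ Subgroup.zpowers (π y) := by
  obtain ⟨g, hg⟩ := h0 x y hx hy hx1 hy1 hdx hdy
  obtain ⟨i, hi⟩ := Subgroup.mem_zpowers_iff.1 hg
  exact ⟨π g, Subgroup.mem_zpowers_iff.2 ⟨i, by rw [← map_zpow, hi, map_mul, map_mul, map_inv]⟩⟩

theorem Env.type_two_of (h : Env r n π ρ) (h0 : Conj0 r n ρ) (hF : Fac T A M S l) (hM : NoSq M r) {x₀ : G}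
    (hx₀M : π x₀ ∈ M) (hx₀r : x₀ ^ r = 1) (hx₀1 : x₀ ≠ 1) (hdx₀ : finrank F (cm (ρ x₀)) = n)
    (hS : TwoFac A S₁ S₂) (hd₁ : r ∣ Nat.card S₁) (hd₂ : r ∣ Nat.card S₂) :
    ∀ x, π x ∈ S₁ ∨ π x ∈ S₂ → x ^ r = 1 → x ≠ 1 → finrank F (cm (ρ x)) = 2 * n := by
  rcases h.dich hS hd₁ hd₂ with h1 | h1
  · exfalso
    have hc : ∀ x ∈ S₂, ∀ y ∈ S₁, orderOf x = r → orderOf y = r → ∃ t : T, t * y * t⁻¹ ∈ Subgroup.zpowers x := by
      intro x hx y hy hxr hyr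
      obtain ⟨x', rfl, hx2, hx3⟩ := h.lift_ne hxr
      obtain ⟨y', rfl, hy2, hy3⟩ := h.lift_ne hyr
      exact h.conjT h0 hy2 hx2 hy3 hx3 (h1 _ (Or.inl hy) hy2 hy3) (h1 _ (Or.inr hx) hx2 hx3)
    have hFr := Fact.mk h.rd.prime
    obtain ⟨y₀, hy₀⟩ := exists_prime_orderOf_dvd_card' r hd₁
    have hy₀r : orderOf (y₀ : T) = r := by rw [Subgroup.orderOf_coe, hy₀]
    obtain ⟨y', hy1, hy2, hy3⟩ := h.lift_ne hy₀r
    obtain ⟨t, ht⟩ := h.conjT h0 hy2 hx₀r hy3 hx₀1 (h1 _ (Or.inl (by rw [hy1]; exact y₀.2)) hy2 hy3) hdx₀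
    rw [hy1] at ht
    exact noR' h.rd.prime hS hF hM hd₂ hc y₀.2 hy₀r ((Subgroup.zpowers_le.2 hx₀M) ht)
  · exact h1

/-- the elements of order `r` of `M` are of type `n` -/
theorem Env.type_of_mem (h : Env r n π ρ) (hM : NoSq M r) {x₀ : G}
    (hx₀M : π x₀ ∈ M) (hx₀r : x₀ ^ r = 1) (hx₀1 : x₀ ≠ 1) (hdx₀ : finrank F (cm (ρ x₀)) = n) {y : G}
    (hyM : π y ∈ M) (hyr : y ^ r = 1) (hy1 : y ≠ 1) : finrank F (cm (ρ y)) = n := by
  obtain ⟨a, ha, hay⟩ := conj_of_cyc h.rd.prime hM hx₀M hyM (h.porder hx₀r hx₀1) (h.porder hyr hy1)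
  obtain ⟨i, hi⟩ := Subgroup.mem_zpowers_iff.1 hay
  obtain ⟨a, rfl⟩ := h.surj a
  have h1 : x₀ ^ i = a * y * a⁻¹ := by
    refine h.lift_unique ?_ (by rw [conj_pow, hyr, mul_one, mul_inv_cancel]) (by
      rw [map_zpow, hi, map_mul, map_mul, map_inv])
    rw [← zpow_natCast, ← zpow_mul, mul_comm, zpow_mul, zpow_natCast, hx₀r, one_zpow]
  have h2 : finrank F (cm (ρ (a * y * a⁻¹))) = finrank F (cm (ρ y)) := by
    have e1 := finrank_fx_add_cm h.rd.ne0 (h.rpow (x := a * y * a⁻¹) (by rw [conj_pow, hyr, mul_one, mul_inv_cancel]))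
    have e2 := finrank_fx_add_cm h.rd.ne0 (h.rpow hyr)
    have e3 : ∀ b z : G, finrank F (fx (ρ z)) ≤ finrank F (fx (ρ (b * z * b⁻¹))) := by
      intro b z
      refine LinearMap.finrank_le_finrank_of_injective
        (f := (ρ b).restrict (p := fx (ρ z)) (q := fx (ρ (b * z * b⁻¹))) fun v hv => ?_) fun u v huv => ?_
      · rw [mem_fx, rho_mul, rho_mul, rho_inv', mem_fx.1 hv]
      · exact Subtype.ext (h.injE b (congrArg Subtype.val huv))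
    have e4 := e3 a y
    have e5 := e3 a⁻¹ (a * y * a⁻¹)
    rw [show a⁻¹ * (a * y * a⁻¹) * a⁻¹⁻¹ = y by group] at e5
    omega
  rw [← h2, ← h1]
  have h3 : x₀ ^ i ≠ 1 := by
    rw [h1]
    intro h4
    apply hy1
    have : a⁻¹ * (a * y * a⁻¹) * a = a⁻¹ * 1 * a := by rw [h4]
    rw [mul_one, inv_mul_cancel] at this
    rw [← this]
    group
  have h4 : (x₀ ^ i) ^ r = 1 := by
    rw [← zpow_natCast, ← zpow_mul, mul_comm, zpow_mul, zpow_natCast, hx₀r, one_zpow]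
  rcases h.type h4 h3 with h5 | h5
  · exact h5
  · exfalso
    have h6 : fx (ρ x₀) ≤ fx (ρ (x₀ ^ i)) := by
      intro v hv
      cases i with
      | ofNat k =>
        rw [Int.ofNat_eq_natCast, zpow_natCast]
        exact mem_fx_pow hv k
      | negSucc k =>
        rw [zpow_negSucc]
        exact mem_fx_inv (mem_fx_pow hv (k + 1))
    have h7 := Submodule.finrank_mono h6
    have e1 := finrank_fx_add_cm h.rd.ne0 (h.rpow hx₀r)
    have e2 := finrank_fx_add_cm h.rd.ne0 (h.rpow h4)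
    have := h.n3
    omega

/-- the final form: types -/
theorem Env.fin_type (h : Env r n π ρ) (h0 : Conj0 r n ρ) (hF : Fac T A M S l) (hM : NoSq M r) {x₀ : G}
    (hx₀M : π x₀ ∈ M) (hx₀r : x₀ ^ r = 1) (hx₀1 : x₀ ≠ 1) (hdx₀ : finrank F (cm (ρ x₀)) = n) :
    ∀ S₁ S₂ : Subgroup T, TwoFac A S₁ S₂ → r ∣ Nat.card S₁ → r ∣ Nat.card S₂ →
      ∀ z, π z ∈ S₁ ∨ π z ∈ S₂ → z ^ r = 1 → z ≠ 1 → finrank F (cm (ρ z)) = 2 * n :=
  fun _ _ hS hd₁ hd₂ => h.type_two_of h0 hF hM hx₀M hx₀r hx₀1 hdx₀ hS hd₁ hd₂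

/-- the final form: no elements of order `r` of the factors in `M` -/
theorem Env.fin_no (h : Env r n π ρ) (h0 : Conj0 r n ρ) (hF : Fac T A M S l) (hM : NoSq M r) {x₀ : G}
    (hx₀M : π x₀ ∈ M) (hx₀r : x₀ ^ r = 1) (hx₀1 : x₀ ≠ 1) (hdx₀ : finrank F (cm (ρ x₀)) = n) :
    ∀ S₁ S₂ : Subgroup T, TwoFac A S₁ S₂ → r ∣ Nat.card S₁ → r ∣ Nat.card S₂ →
      ∀ y ∈ S₁, y ∈ M → orderOf y ≠ r := by
  intro S₁ S₂ hS hd₁ hd₂ y hy hyM hyr
  obtain ⟨y', rfl, h1, h2⟩ := h.lift_ne hyr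
  have h3 := h.type_two_of h0 hF hM hx₀M hx₀r hx₀1 hdx₀ hS hd₁ hd₂ y' (Or.inl hy) h1 h2
  have h4 := h.type_of_mem hM hx₀M hx₀r hx₀1 hdx₀ hyM h1 h2
  have := h.n3
  omega

omit [Finite T] in
theorem Env.fpf_of_type (h : Env r n π ρ) (hV : finrank F V = 2 * n)
    (ht : ∀ z, π z ∈ S₁ ∨ π z ∈ S₂ → z ^ r = 1 → z ≠ 1 → finrank F (cm (ρ z)) = 2 * n) : Fpf r π ρ S₁ S₂ := by
  intro z hz hzr hz1
  have h1 := ht z hz hzr hz1
  have h2 := finrank_fx_add_cm h.rd.ne0 (h.rpow hzr)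
  exact Submodule.finrank_eq_zero.1 (by omega)

/-- the full isometry group, `dim V = 2 n`, type `2 n`: no elements of order `r` of the factors in `M` -/
theorem Env.full_no {B : LinearMap.BilinForm F V} (h : Env r n π ρ) (hF : Fac T A M S l) (hM : NoSq M r)
    (hV : finrank F V = 2 * n) (hnd : ∀ u, (∀ v, B u v = 0) → u = 0) (hsym : ∀ u v, B u v = 0 → B v u = 0)
    (hiso : ∀ g u v, B (ρ g u) (ρ g v) = B u v) (hfull : ∀ t ∈ isoB B, ∃ g, ρ g = toE t)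
    (hty : ∀ S₁ S₂ : Subgroup T, TwoFac A S₁ S₂ → r ∣ Nat.card S₁ → r ∣ Nat.card S₂ →
      ∀ z, π z ∈ S₁ ∨ π z ∈ S₂ → z ^ r = 1 → z ≠ 1 → finrank F (cm (ρ z)) = 2 * n) :
    ∀ S₁ S₂ : Subgroup T, TwoFac A S₁ S₂ → r ∣ Nat.card S₁ → r ∣ Nat.card S₂ →
      ∀ y ∈ S₁, y ∈ M → orderOf y ≠ r := by
  intro S₁ S₂ hS hd₁ hd₂
  exact noR h.rd.prime hS hF.fac hM hd₂
    (h.conj1 hS (h.fpf_of_type hV (hty S₁ S₂ hS hd₁ hd₂)) hV hnd hsym hiso hfull hd₁ hd₂)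

end Cfsg.Agent.H899.Pt
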