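import Cfsg.Agent.H899.Pt.Grp

/-!
# Conjugacy of subgroups of order `r` with `dim [V, x] = n` (helper899, S3679)

* `toE` : `V ≃ₗ V → End V`;
* `conj_same` : `x`, `y` of order `r` with the same commutator space (of dimension `n`) and the same fixed space are
  conjugate up to powers.
-/

set_option autoImplicit false
set_option linter.unusedSectionVars false
set_option linter.unusedVariables false

namespace Cfsg.Agent.H899.Pt

open Module Cfsg.Agent.H951 Cfsg.Agent.H884.Cg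

variable {F : Type*} [Field F] [Fintype F] {V : Type*} [AddCommGroup V] [Module F V] [FiniteDimensional F V]

/-- automorphisms as endomorphisms -/
def toE : (V ≃ₗ[F] V) →* Module.End F V where
  toFun g := g.toLinearMap
  map_one' := rfl
  map_mul' _ _ := rfl

theorem toE_apply (g : V ≃ₗ[F] V) (v : V) : toE g v = g v := rfl

theorem toE_inj : Function.Injective (toE : (V ≃ₗ[F] V) →* Module.End F V) := fun _ _ h =>
  LinearEquiv.toLinearMap_injective h

theorem finite_equiv : Finite (V ≃ₗ[F] V) := by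
  have : Finite V := Module.finite_of_finite F
  exact Finite.of_injective (fun f : V ≃ₗ[F] V => (f : V → V)) DFunLike.coe_injective

theorem toE_pow {g : V ≃ₗ[F] V} {r : ℕ} (h : g ^ r = 1) : toE g ^ r = 1 := by rw [← map_pow, h, map_one]

theorem toE_ne {g : V ≃ₗ[F] V} (h : g ≠ 1) : toE g ≠ 1 := fun h1 => h (toE_inj (by rw [h1, map_one]))

theorem cm_conj (g x : V ≃ₗ[F] V) : cm (toE (g * x * g⁻¹)) = (cm (toE x)).map (g : V →ₗ[F] V) := by
  ext v
  rw [mem_cm, Submodule.mem_map]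
  constructor
  · rintro ⟨w, rfl⟩
    refine ⟨x (g⁻¹ w) - g⁻¹ w, mem_cm.2 ⟨_, rfl⟩, ?_⟩
    show g (x (g⁻¹ w) - g⁻¹ w) = g (x (g⁻¹ w)) - w
    rw [map_sub]
    congr 1
    exact g.apply_symm_apply w
  · rintro ⟨y, hy, rfl⟩
    obtain ⟨w, rfl⟩ := mem_cm.1 hy
    refine ⟨g w, ?_⟩
    show g (x (g⁻¹ (g w))) - g w = g (x w - w)
    rw [map_sub]
    congr 3
    exact g.symm_apply_apply w

theorem fx_conj (g x : V ≃ₗ[F] V) : fx (toE (g * x * g⁻¹)) = (fx (toE x)).map (g : V →ₗ[F] V) := by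
  ext v
  rw [mem_fx, Submodule.mem_map]
  constructor
  · intro h
    refine ⟨g⁻¹ v, ?_, g.apply_symm_apply v⟩
    rw [mem_fx]
    have h1 : g (x (g⁻¹ v)) = v := h
    show x (g⁻¹ v) = g⁻¹ v
    conv_rhs => rw [← h1]
    exact (g.symm_apply_apply _).symm
  · rintro ⟨y, hy, rfl⟩
    have h1 : x y = y := mem_fx.1 hy
    show g (x (g⁻¹ (g y))) = g y
    have h2 : g⁻¹ (g y) = y := g.symm_apply_apply y
    rw [h2, h1]

/-- the subgroup of `O'` acting trivially on `P` and preserving `W` -/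
def resSub (O' : Subgroup (V ≃ₗ[F] V)) (P W : Submodule F V) : Subgroup (V ≃ₗ[F] V) where
  carrier := {g | g ∈ O' ∧ (∀ v ∈ P, g v = v) ∧ ∀ w ∈ W, g w ∈ W ∧ g⁻¹ w ∈ W}
  mul_mem' := by
    rintro a b ⟨ha, ha2, ha3⟩ ⟨hb, hb2, hb3⟩
    refine ⟨O'.mul_mem ha hb, fun v hv => ?_, fun w hw => ⟨?_, ?_⟩⟩
    · show a (b v) = v
      rw [hb2 v hv, ha2 v hv]
    · exact (ha3 _ (hb3 w hw).1).1
    · rw [mul_inv_rev]
      exact (hb3 _ (ha3 w hw).2).2
  one_mem' := ⟨O'.one_mem, fun v _ => rfl, fun w hw => ⟨hw, by rw [inv_one]; exact hw⟩⟩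
  inv_mem' := by
    rintro a ⟨ha, ha2, ha3⟩
    refine ⟨O'.inv_mem ha, fun v hv => ?_, fun w hw => ⟨(ha3 w hw).2, by rw [inv_inv]; exact (ha3 w hw).1⟩⟩
    have h1 := ha2 v hv
    show a.symm v = v
    conv_lhs => rw [← h1]
    exact a.symm_apply_apply v

theorem mem_resSub {O' : Subgroup (V ≃ₗ[F] V)} {P W : Submodule F V} {g : V ≃ₗ[F] V} :
    g ∈ resSub O' P W ↔ g ∈ O' ∧ (∀ v ∈ P, g v = v) ∧ ∀ w ∈ W, g w ∈ W ∧ g⁻¹ w ∈ W := Iff.rfl

/-- an element is in its `resSub` -/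
theorem self_mem_resSub {O' : Subgroup (V ≃ₗ[F] V)} {x : V ≃ₗ[F] V} (hx : x ∈ O') :
    x ∈ resSub O' (fx (toE x)) (cm (toE x)) := by
  refine mem_resSub.2 ⟨hx, fun v hv => mem_fx.1 hv, fun w hw => ⟨inv_cm w hw, ?_⟩⟩
  obtain ⟨u, rfl⟩ := mem_cm.1 hw
  rw [mem_cm]
  refine ⟨x⁻¹ u, ?_⟩
  show x (x⁻¹ u) - x⁻¹ u = x⁻¹ (x u - u)
  rw [map_sub]
  congr 1
  rw [show x (x⁻¹ u) = u from x.apply_symm_apply u, show x⁻¹ (x u) = u from x.symm_apply_apply u]

theorem noSq_resSub {r n : ℕ} (h : RD F r n) {O' : Subgroup (V ≃ₗ[F] V)} {P W : Submodule F V} (hPW : P ⊔ W = ⊤)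
    (hd : finrank F W = n) : NoSq (resSub O' P W) r := by
  have hFp := Fact.mk h.prime
  intro a ha b hb har hbr hab
  have hcm : ∀ g ∈ resSub O' P W, cm (toE g) ≤ W := by
    intro g hg v hv
    obtain ⟨u, rfl⟩ := mem_cm.1 hv
    obtain ⟨p, hp, w, hw, rfl⟩ := Submodule.mem_sup.1 (show u ∈ P ⊔ W by rw [hPW]; trivial)
    have h1 : g p = p := hg.2.1 p hp
    have h2 : toE g (p + w) - (p + w) = g w - w := by
      rw [toE_apply, map_add, h1]
      abel
    rw [h2]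
    exact W.sub_mem (hg.2.2 w hw).1 hw
  have ha1 : a ≠ 1 := by
    rintro rfl
    rw [orderOf_one] at har
    exact h.prime.one_lt.ne har
  have hb1 : b ≠ 1 := by
    rintro rfl
    rw [orderOf_one] at hbr
    exact h.prime.one_lt.ne hbr
  have har' : a ^ r = 1 := by rw [← har, pow_orderOf_eq_one]
  have hbr' : b ^ r = 1 := by rw [← hbr, pow_orderOf_eq_one]
  have hex : ∃ i : ℕ, a * b ^ i = 1 := by
    by_contra hcon
    push Not at hcon
    have hc : Commute (toE a) (toE b) := by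
      show toE a * toE b = toE b * toE a
      rw [← map_mul, hab, map_mul]
    obtain ⟨i, j, hij⟩ := h.exists_big (toE_pow har') (toE_pow hbr') hc (toE_ne hb1) (by
      intro i hi
      rw [← map_pow, ← map_mul] at hi
      exact hcon i (toE_inj (by rw [hi, map_one])))
    have h1 := Submodule.finrank_mono (hcm (a ^ i * b ^ j) ((resSub O' P W).mul_mem
      ((resSub O' P W).pow_mem ha i) ((resSub O' P W).pow_mem hb j)))
    rw [map_mul, map_pow, map_pow] at h1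
    have := h.pos
    omega
  obtain ⟨i, hi⟩ := hex
  have h2 : a ∈ Subgroup.zpowers b := by
    rw [mul_eq_one_iff_eq_inv.1 hi]
    exact inv_mem (pow_mem (Subgroup.mem_zpowers _) i)
  have h3 : Subgroup.zpowers a = Subgroup.zpowers b := by
    have := finite_equiv (F := F) (V := V)
    refine Subgroup.eq_of_le_of_card_ge (Subgroup.zpowers_le.2 h2) ?_
    rw [Nat.card_zpowers, Nat.card_zpowers, har, hbr]
  rw [h3]
  exact Subgroup.mem_zpowers _

/-- same commutator space, same fixed space -/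
theorem conj_same {r n : ℕ} (h : RD F r n) {O' : Subgroup (V ≃ₗ[F] V)} {x y : V ≃ₗ[F] V} (hx : x ∈ O') (hy : y ∈ O')
    (hxr : x ^ r = 1) (hyr : y ^ r = 1) (hx1 : x ≠ 1) (hy1 : y ≠ 1) (hcm : cm (toE x) = cm (toE y))
    (hfx : fx (toE x) = fx (toE y)) (hd : finrank F (cm (toE y)) = n) :
    ∃ d ∈ O', d * x * d⁻¹ ∈ Subgroup.zpowers y := by
  have hF := Fact.mk h.prime
  have := finite_equiv (F := F) (V := V)
  have hx' := self_mem_resSub hx
  rw [hcm, hfx] at hx'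
  obtain ⟨d, hd, hdx⟩ := conj_of_cyc h.prime (noSq_resSub h (isCompl_fx_cm h.ne0 (toE_pow hyr)).sup_eq_top hd)
    (self_mem_resSub hy) hx' (orderOf_eq_prime hyr hy1) (orderOf_eq_prime hxr hx1)
  exact ⟨d, hd.1, hdx⟩

end Cfsg.Agent.H899.Pt
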