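import Cfsg.Agent.H899.Pt.ConjA
import Cfsg.Agent.H899.Pt.Env
import Cfsg.Agent.S0749
import Cfsg.Agent.H953.Sympl

/-!
# Conjugacy of subgroups of order `r` with `dim [V, x] = n` in symplectic groups (helper899, S3679)

* `alt_equiv` : nondegenerate alternating forms of the same dimension are isometric;
* `isoB B` : the isometry group; `orth_fx_cm`, `mem_fx_iff`, `nd_cm`;
* `conj_S` : in `Sp(V)`.
-/

set_option autoImplicit false
set_option linter.unusedSectionVars false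
set_option linter.unusedVariables false

namespace Cfsg.Agent.H899.Pt

open Module Cfsg.Agent.H951 Cfsg.Agent.H884.Cg

section Alt

universe u v w

variable {F : Type u} [Field F]

theorem alt_equiv {V : Type v} [AddCommGroup V] [Module F V] [FiniteDimensional F V] {W : Type w} [AddCommGroup W]
    [Module F W] [FiniteDimensional F W] (B : LinearMap.BilinForm F V) (hA : B.IsAlt)
    (hnd : ∀ u, (∀ v, B u v = 0) → u = 0) (C : LinearMap.BilinForm F W) (hC : C.IsAlt)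
    (hnc : ∀ u, (∀ v, C u v = 0) → u = 0) (hd : finrank F V = finrank F W) :
    ∃ e : V ≃ₗ[F] W, ∀ u v, C (e u) (e v) = B u v := by
  obtain ⟨m, b, h1, h2, h3⟩ := H953.exists_symplectic_basis B hA hnd
  obtain ⟨m', c, h1', h2', h3'⟩ := H953.exists_symplectic_basis C hC hnc
  have hm : m = m' := by
    have e1 := finrank_eq_card_basis b
    have e2 := finrank_eq_card_basis c
    rw [Fintype.card_sum, Fintype.card_fin] at e1 e2
    omega
  subst hm
  let e : V ≃ₗ[F] W := b.equiv c (Equiv.refl _)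
  have he : ∀ i, e (b i) = c i := fun i => by simp [e]
  refine ⟨e, ?_⟩
  have hBB : C.comp (e : V →ₗ[F] W) (e : V →ₗ[F] W) = B := by
    refine LinearMap.BilinForm.ext_basis b fun i j => ?_
    rw [LinearMap.BilinForm.comp_apply]
    show C (e (b i)) (e (b j)) = _
    rw [he, he]
    rcases i with i | i <;> rcases j with j | j
    · rw [h2, h2']
    · rw [h1, h1']
    · have e1 := hA.neg_eq (b (Sum.inl j)) (b (Sum.inr i))
      have e2 := hC.neg_eq (c (Sum.inl j)) (c (Sum.inr i))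
      rw [← e1, ← e2, h1, h1']
    · rw [h3, h3']
  intro u v
  rw [← hBB]
  rfl

end Alt

variable {F : Type*} [Field F] [Fintype F] {V : Type*} [AddCommGroup V] [Module F V] [FiniteDimensional F V]
  {B : LinearMap.BilinForm F V} {r n : ℕ}

/-- the isometry group -/
def isoB (B : LinearMap.BilinForm F V) : Subgroup (V ≃ₗ[F] V) where
  carrier := {g | ∀ u v, B (g u) (g v) = B u v}
  mul_mem' := by
    intro a b ha hb u v
    show B (a (b u)) (a (b v)) = _
    rw [ha, hb]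
  one_mem' := fun u v => rfl
  inv_mem' := by
    intro a ha u v
    have h1 := ha (a⁻¹ u) (a⁻¹ v)
    have h2 : ∀ w, a (a⁻¹ w) = w := fun w => a.apply_symm_apply w
    rw [h2, h2] at h1
    exact h1.symm

theorem mem_isoB {g : V ≃ₗ[F] V} : g ∈ isoB B ↔ ∀ u v, B (g u) (g v) = B u v := Iff.rfl

theorem orth_fx_cm {x : V ≃ₗ[F] V} (hx : x ∈ isoB B) {u w : V} (hu : u ∈ fx (toE x)) (hw : w ∈ cm (toE x)) :
    B u w = 0 := by
  obtain ⟨v, rfl⟩ := mem_cm.1 hw
  have h1 : x u = u := mem_fx.1 hu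
  have h2 := hx u v
  rw [h1] at h2
  show B u (x v - v) = 0
  rw [map_sub, h2, sub_self]

theorem nd_cm (hr : (r : F) ≠ 0) (hnd : ∀ u, (∀ v, B u v = 0) → u = 0) {x : V ≃ₗ[F] V} (hx : x ∈ isoB B)
    (hxr : x ^ r = 1) (hB : ∀ u v, B u v = 0 → B v u = 0) {u : V} (hu : u ∈ cm (toE x))
    (h : ∀ w ∈ cm (toE x), B u w = 0) : u = 0 := by
  apply hnd
  intro v
  obtain ⟨a, ha, b, hb, rfl⟩ := Submodule.mem_sup.1
    (show v ∈ fx (toE x) ⊔ cm (toE x) by rw [(isCompl_fx_cm hr (toE_pow hxr)).sup_eq_top]; trivial)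
  rw [map_add, h b hb, hB _ _ (orth_fx_cm hx ha hu), add_zero]

theorem mem_fx_iff (hr : (r : F) ≠ 0) (hnd : ∀ u, (∀ v, B u v = 0) → u = 0) {x : V ≃ₗ[F] V} (hx : x ∈ isoB B)
    (hxr : x ^ r = 1) (hB : ∀ u v, B u v = 0 → B v u = 0) {v : V} :
    v ∈ fx (toE x) ↔ ∀ w ∈ cm (toE x), B v w = 0 := by
  refine ⟨fun hv w hw => orth_fx_cm hx hv hw, fun h => ?_⟩
  obtain ⟨a, ha, b, hb, rfl⟩ := Submodule.mem_sup.1
    (show v ∈ fx (toE x) ⊔ cm (toE x) by rw [(isCompl_fx_cm hr (toE_pow hxr)).sup_eq_top]; trivial)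
  have hb0 : b = 0 := by
    refine nd_cm hr hnd hx hxr hB hb fun w hw => ?_
    have h1 := h w hw
    rw [LinearMap.BilinForm.add_left, orth_fx_cm hx ha hw, zero_add] at h1
    exact h1
  rw [hb0, add_zero]
  exact ha

theorem conj_S (h : RD F r n) (hB : B.Nondegenerate) (hA : B.IsAlt) {x y : V ≃ₗ[F] V} (hx : x ∈ isoB B)
    (hy : y ∈ isoB B) (hxr : x ^ r = 1) (hyr : y ^ r = 1) (hx1 : x ≠ 1) (hy1 : y ≠ 1)
    (hdx : finrank F (cm (toE x)) = n) (hdy : finrank F (cm (toE y)) = n) :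
    ∃ g ∈ isoB B, g * x * g⁻¹ ∈ Subgroup.zpowers y := by
  have hF := Fact.mk h.prime
  have hnd : ∀ u, (∀ v, B u v = 0) → u = 0 := fun u hu => hB.1 u hu
  have hsym : ∀ u v, B u v = 0 → B v u = 0 := fun u v huv => by
    have e1 := hA.neg_eq u v
    rw [← e1, huv, neg_zero]
  have hres : ∀ z : V ≃ₗ[F] V, z ∈ isoB B → z ^ r = 1 → ∀ u : cm (toE z),
      (∀ v, (B.restrict (cm (toE z))) u v = 0) → u = 0 := by
    intro z hz hzr u hu
    exact Subtype.ext (nd_cm h.ne0 hnd hz hzr hsym u.2 fun w hw => hu ⟨w, hw⟩)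
  obtain ⟨e, he⟩ := alt_equiv (B.restrict (cm (toE x))) (fun u => hA u) (hres x hx hxr)
    (B.restrict (cm (toE y))) (fun u => hA u) (hres y hy hyr) (by rw [hdx, hdy])
  obtain ⟨g, hg, hge⟩ := Cfsg.Agent.S0749.result B hB hA _ _ e (fun u v => he u v)
  have hgO : g ∈ isoB B := hg
  have hmap : (cm (toE x)).map (g : V →ₗ[F] V) = cm (toE y) := by
    apply Submodule.eq_of_le_of_finrank_le
    · rintro _ ⟨v, hv, rfl⟩
      have h1 := hge ⟨v, hv⟩
      show g v ∈ _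
      rw [h1]
      exact (e ⟨v, hv⟩).2
    · rw [LinearEquiv.finrank_map_eq, hdx, hdy]
  have hcm' : cm (toE (g * x * g⁻¹)) = cm (toE y) := by rw [cm_conj, hmap]
  have hx' : g * x * g⁻¹ ∈ isoB B := (isoB B).mul_mem ((isoB B).mul_mem hgO hx) ((isoB B).inv_mem hgO)
  have hxr' : (g * x * g⁻¹) ^ r = 1 := by rw [conj_pow, hxr, mul_one, mul_inv_cancel]
  have hx1' : g * x * g⁻¹ ≠ 1 := by
    intro h1
    apply hx1
    have : x = g⁻¹ * (g * x * g⁻¹) * g := by group
    rw [this, h1]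
    group
  have hfx' : fx (toE (g * x * g⁻¹)) = fx (toE y) := by
    ext v
    rw [mem_fx_iff h.ne0 hnd hx' hxr' hsym, mem_fx_iff h.ne0 hnd hy hyr hsym, hcm']
  obtain ⟨d, hd, hdx⟩ := conj_same h hx' hy hxr' hyr hx1' hy1 hcm' hfx' hdy
  refine ⟨d * g, (isoB B).mul_mem hd hgO, ?_⟩
  have : d * g * x * (d * g)⁻¹ = d * (g * x * g⁻¹) * d⁻¹ := by group
  rw [this]
  exact hdx

end Cfsg.Agent.H899.Pt
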