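import Cfsg.Agent.H899.Pt.Env3

/-!
# Factorizations: fixed point free elements of order `r` of the factors, III (helper899, S3679)

* `Env.conj1` : `G` the full isometry group of a nondegenerate form, `dim V = 2 n`, all elements of order `r` of `S₁`,
  `S₂` fixed point free: the elements `x ∈ S₂`, `y ∈ S₁` of order `r` are conjugate up to powers.
-/

set_option autoImplicit false
set_option linter.unusedSectionVars false
set_option linter.unusedVariables false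

namespace Cfsg.Agent.H899.Pt

open Module Cfsg.Agent.H951 Cfsg.Agent.H884.Cg Cfsg.Agent.H899.CG

section Glue

variable {F : Type*} [Field F] {V : Type*} [AddCommGroup V] [Module F V] [FiniteDimensional F V]

/-- the isometry which is the identity on `Z₁` and `b` on `Z₂` -/
theorem exists_glue {B : LinearMap.BilinForm F V} (hnd : ∀ u, (∀ v, B u v = 0) → u = 0)
    {Z₁ Z₂ : Submodule F V} (hc : IsCompl Z₁ Z₂) (h12 : ∀ u ∈ Z₁, ∀ v ∈ Z₂, B u v = 0)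
    (h21 : ∀ u ∈ Z₂, ∀ v ∈ Z₁, B u v = 0) {b : Module.End F V} (hb : ∀ u v, B (b u) (b v) = B u v)
    (hbZ : Inv b Z₂) :
    ∃ t ∈ isoB B, (∀ v ∈ Z₁, t v = v) ∧ ∀ v ∈ Z₂, t v = b v := by
  let f : V →ₗ[F] V := LinearMap.ofIsCompl hc Z₁.subtype (b.comp Z₂.subtype)
  have h1 : ∀ v ∈ Z₁, f v = v := fun v hv => LinearMap.ofIsCompl_apply_left hc ⟨v, hv⟩
  have h2 : ∀ v ∈ Z₂, f v = b v := fun v hv => LinearMap.ofIsCompl_apply_right hc ⟨v, hv⟩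
  have hf : ∀ u v, B (f u) (f v) = B u v := by
    intro u v
    obtain ⟨u₁, hu₁, u₂, hu₂, rfl⟩ := Submodule.mem_sup.1 (show u ∈ Z₁ ⊔ Z₂ by rw [hc.sup_eq_top]; trivial)
    obtain ⟨v₁, hv₁, v₂, hv₂, rfl⟩ := Submodule.mem_sup.1 (show v ∈ Z₁ ⊔ Z₂ by rw [hc.sup_eq_top]; trivial)
    have e1 : f (u₁ + u₂) = u₁ + b u₂ := by rw [map_add, h1 _ hu₁, h2 _ hu₂]
    have e2 : f (v₁ + v₂) = v₁ + b v₂ := by rw [map_add, h1 _ hv₁, h2 _ hv₂]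
    rw [e1, e2]
    simp only [map_add, LinearMap.add_apply, h12 _ hu₁ _ (hbZ _ hv₂), h21 _ (hbZ _ hu₂) _ hv₁, h12 _ hu₁ _ hv₂,
      h21 _ hu₂ _ hv₁, hb]
  have hinj : Function.Injective f := by
    rw [injective_iff_map_eq_zero]
    intro u hu
    apply hnd
    intro v
    rw [← hf, hu, map_zero, LinearMap.zero_apply]
  exact ⟨LinearEquiv.ofInjectiveEndo f hinj, fun u v => hf u v, h1, h2⟩

end Glue

variable {T G : Type*} [Group T] [Finite T] [Group G] {F : Type*} [Field F] [Fintype F] {V : Type*} [AddCommGroup V]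
  [Module F V] [FiniteDimensional F V]
variable {r n : ℕ} {π : G →* T} {ρ : G →* Module.End F V} {A S₁ S₂ : Subgroup T} {B : LinearMap.BilinForm F V}

omit [Finite T] [Fintype F] [FiniteDimensional F V] in
theorem orth_fx_cm' {w : Module.End F V} (hw : ∀ u v, B (w u) (w v) = B u v) {u v : V} (hu : u ∈ fx w) (hv : v ∈ cm w) :
    B u v = 0 := by
  obtain ⟨z, rfl⟩ := mem_cm.1 hv
  have h1 : w u = u := mem_fx.1 hu
  have h2 := hw u z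
  rw [h1] at h2
  rw [map_sub, h2, sub_self]

/-- one pair -/
theorem Env.conj1_aux (h : Env r n π ρ) (hS : TwoFac A S₁ S₂) (hfp : Fpf r π ρ S₁ S₂) (hV : finrank F V = 2 * n)
    (hnd : ∀ u, (∀ v, B u v = 0) → u = 0) (hsym : ∀ u v, B u v = 0 → B v u = 0)
    (hiso : ∀ g u v, B (ρ g u) (ρ g v) = B u v) (hfull : ∀ t ∈ isoB B, ∃ g, ρ g = toE t)
    (hd₁ : r ∣ Nat.card S₁) (hd₂ : r ∣ Nat.card S₂) :
    ∃ x y t : G, π x ∈ S₂ ∧ x ^ r = 1 ∧ x ≠ 1 ∧ π y ∈ S₁ ∧ y ^ r = 1 ∧ y ≠ 1 ∧ t⁻¹ * y * t ∈ Subgroup.zpowers x := by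
  have hn3 := h.n3
  have hTop : (⊤ : Submodule F V) ≠ ⊥ := by
    intro h1
    have h3 : finrank F (⊤ : Submodule F V) = 0 := by rw [h1, finrank_bot]
    rw [finrank_top] at h3
    omega
  obtain ⟨y, g, k, hy, hg, hyr, hy1, hgy, hyk⟩ := h.exists_yg hS (h.noSq₁ hfp hTop) hd₁
  obtain ⟨x, q, l, hx, hq, hxr, hx1, hqx, hxl⟩ := h.exists_yg hS.symm (h.noSq₁ hfp.symm hTop) hd₂
  obtain ⟨w, i, j, hwr, a1, a2, hne1, hne2, hxi, hij⟩ := h.split hS hfp hV hx hxr hx1 hy hg hyr hy1 hgy hyk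
  have hxy : Commute x y := h.comm hxr (hS.comm _ hy _ hx).symm
  have hxg : Commute x g := h.comm hxr (hS.comm _ hg _ hx).symm
  have hyq : Commute y q := h.comm hyr (hS.comm _ hy _ hq)
  have hcp := isCompl_fx_cm h.rd.ne0 (h.rpow hwr)
  have hcp' : cm (ρ w) ⊔ fx (ρ w) = ⊤ := by rw [sup_comm]; exact hcp.sup_eq_top
  have hcp'' : cm (ρ w) ⊓ fx (ρ w) = ⊥ := by rw [inf_comm]; exact hcp.inf_eq_bot
  -- `x ^ l = x⁻¹`
  obtain ⟨v₁, hv₁, hv₁0⟩ := (Submodule.ne_bot_iff _).1 hne1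
  have hl : x ^ l = x⁻¹ :=
    (h.swap₂ hfp hx hxr hx1 hyq hqx hxl hxi hij a1 a2 hcp.sup_eq_top hcp.inf_eq_bot hv₁).2 hv₁0
  have hxj : x ^ j ≠ 1 := by rw [hij]; exact fun h1 => hxi (inv_eq_one.1 h1)
  have hji : x ^ i = (x ^ j)⁻¹ := by rw [hij, inv_inv]
  -- `g q` preserves `cm (ρ w)` and inverts `x`
  have hb2 : Inv (ρ (g * q)) (cm (ρ w)) := by
    intro v hv
    rw [rho_mul]
    have h1 := (h.swap₂ hfp hx hxr hx1 hyq hqx hxl hxj hji a2 a1 hcp' hcp'' hv).1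
    exact (h.swap₁ hfp hx hxr hy hyr hxg hgy hyk a1 a2 hcp.sup_eq_top hcp.inf_eq_bot h1).1
  have hbx : g * q * x = x⁻¹ * (g * q) := by
    rw [mul_assoc, hqx, hl, ← mul_assoc, ← mul_assoc, (hxg.inv_left).eq]
  have hbxi : g * q * x ^ i = x ^ j * (g * q) := by
    have h3 : (g * q) * x * (g * q)⁻¹ = x⁻¹ := by rw [hbx, mul_assoc, mul_inv_cancel, mul_one]
    have h4 : (g * q) * x ^ i * (g * q)⁻¹ = x ^ j := by
      rw [← conj_zpow, h3, inv_zpow, hij]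
    rw [← h4]
    group
  obtain ⟨t, ht, ht1, ht2⟩ := exists_glue hnd hcp (fun u hu v hv => orth_fx_cm' (hiso w) hu hv)
    (fun u hu v hv => hsym _ _ (orth_fx_cm' (hiso w) hv hu)) (hiso (g * q)) hb2
  obtain ⟨τ, hτ⟩ := hfull t ht
  refine ⟨x, y, τ, hx, hxr, hx1, hy, hyr, hy1, Subgroup.mem_zpowers_iff.2 ⟨i, ?_⟩⟩
  rw [mul_assoc, eq_inv_mul_iff_mul_eq]
  -- `τ x ^ i = y τ`
  apply h.inj
  apply LinearMap.ext
  intro v
  obtain ⟨a, ha, b, hb, rfl⟩ := Submodule.mem_sup.1 (show v ∈ fx (ρ w) ⊔ cm (ρ w) by rw [hcp.sup_eq_top]; trivial)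
  rw [rho_mul, rho_mul, map_add, map_add, map_add, map_add, hτ, toE_apply, toE_apply, toE_apply, toE_apply,
    ht1 _ (a1.2 i a ha), ht1 _ ha, ht2 _ (a2.2 i b hb), ht2 _ hb, a1.1 a ha, a2.1 _ (hb2 b hb), ← rho_mul, ← rho_mul,
    hbxi]

/-- **conjugacy, fixed point free elements** -/
theorem Env.conj1 (h : Env r n π ρ) (hS : TwoFac A S₁ S₂) (hfp : Fpf r π ρ S₁ S₂) (hV : finrank F V = 2 * n)
    (hnd : ∀ u, (∀ v, B u v = 0) → u = 0) (hsym : ∀ u v, B u v = 0 → B v u = 0)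
    (hiso : ∀ g u v, B (ρ g u) (ρ g v) = B u v) (hfull : ∀ t ∈ isoB B, ∃ g, ρ g = toE t)
    (hd₁ : r ∣ Nat.card S₁) (hd₂ : r ∣ Nat.card S₂) :
    ∀ x ∈ S₂, ∀ y ∈ S₁, orderOf x = r → orderOf y = r → ∃ t : T, t * y * t⁻¹ ∈ Subgroup.zpowers x := by
  have hn3 := h.n3
  have hTop : (⊤ : Submodule F V) ≠ ⊥ := by
    intro h1
    have h3 : finrank F (⊤ : Submodule F V) = 0 := by rw [h1, finrank_bot]
    rw [finrank_top] at h3
    omega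
  obtain ⟨x₀, y₀, t₀, hx₀, hxr₀, hx1₀, hy₀, hyr₀, hy1₀, ht₀⟩ :=
    h.conj1_aux hS hfp hV hnd hsym hiso hfull hd₁ hd₂
  intro x hx y hy hxr hyr
  obtain ⟨a, ha, hay⟩ := conj_of_cyc h.rd.prime (h.noSq₁ hfp hTop) hy₀ hy (h.porder hyr₀ hy1₀) hyr
  obtain ⟨b, hb, hbx⟩ := conj_of_cyc h.rd.prime (h.noSq₁ hfp.symm hTop) hx hx₀ hxr (h.porder hxr₀ hx1₀)
  -- `a y a⁻¹ = y₀ ^ i`, `t₀⁻¹ y₀ t₀ = x₀ ^ j`, `b x₀ b⁻¹ = x ^ k`
  obtain ⟨i, hi⟩ := Subgroup.mem_zpowers_iff.1 hay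
  obtain ⟨j, hj⟩ := Subgroup.mem_zpowers_iff.1 ht₀
  obtain ⟨k, hk⟩ := Subgroup.mem_zpowers_iff.1 hbx
  have hj' : π x₀ ^ j = (π t₀)⁻¹ * π y₀ * π t₀ := by rw [← map_zpow, hj, map_mul, map_mul, map_inv]
  refine ⟨b * (π t₀)⁻¹ * a, Subgroup.mem_zpowers_iff.2 ⟨k * j * i, ?_⟩⟩
  have e1 : b * (π t₀)⁻¹ * a * y * (b * (π t₀)⁻¹ * a)⁻¹ = b * ((π t₀)⁻¹ * (a * y * a⁻¹) * (π t₀)⁻¹⁻¹) * b⁻¹ := by group
  rw [e1, ← hi, ← conj_zpow, inv_inv, ← hj', ← zpow_mul, ← conj_zpow, ← hk, ← zpow_mul, mul_assoc]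

end Cfsg.Agent.H899.Pt
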